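import Mathlib
import Cfsg.Agent.ClassicalGeometry.PSL2Basic
import Cfsg.Agent.Lib.Cores

/-!
# S3691, residual case D+1 beta, piece A: tools (helper898)

* `not_comm_odd`, `not_comm_two` : elements of `SL₂` not commuting with an element of order `p`;
* `pCore_eq_bot_of_surj` : `O_p` of a central quotient;
* `num_lie` : numbers.
-/

set_option autoImplicit false

open Cfsg Matrix Subgroup

namespace Cfsg.Agent.H898.Rg920

universe u v

section mat

variable {E : Type v} [Field E]

theorem ch_lin {R : Type*} [CommRing R] (A B : Matrix (Fin 2) (Fin 2) R) :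
    A * B + B * A = A.trace • B + B.trace • A + ((A * B).trace - A.trace * B.trace) • (1 : Matrix (Fin 2) (Fin 2) R) := by
  ext i j
  simp only [Matrix.add_apply, Matrix.mul_apply, Fin.sum_univ_two, Matrix.smul_apply, trace_fin_two, smul_eq_mul]
  fin_cases i <;> fin_cases j <;> simp <;> ring

/-- a matrix commuting with a nilpotent one -/
theorem comm_nil {A N : Matrix (Fin 2) (Fin 2) E} (hc : A * N = N * A) (hN : IsNilpotent N) :
    (2 : E) • (A * N) = A.trace • N := by
  have h1 := ch_lin A N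
  have h2 : N.trace = 0 := (Matrix.isNilpotent_trace_of_isNilpotent hN).eq_zero
  have h3 : (A * N).trace = 0 := by
    have h4 : IsNilpotent (A * N) := Commute.isNilpotent_mul_left hc hN
    exact (Matrix.isNilpotent_trace_of_isNilpotent h4).eq_zero
  rw [h2, h3, ← hc, mul_zero, sub_zero, zero_smul, zero_smul, add_zero, add_zero] at h1
  rw [two_smul]
  exact h1

theorem nil_of_pow {p : ℕ} [Fact p.Prime] [CharP E p] {t : Matrix (Fin 2) (Fin 2) E} (ht : t ^ p = 1) :
    IsNilpotent (t - 1) :=
  ⟨p, by rw [sub_pow_char_of_commute p (Commute.one_right t), ht, one_pow, sub_self]⟩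

theorem not_comm_odd {p : ℕ} [Fact p.Prime] [CharP E p] (h2 : (2 : E) ≠ 0) {s t : SpecialLinearGroup (Fin 2) E}
    (hs : s ^ 2 = -1) (ht : t ^ p = 1) (ht1 : t ≠ 1) : t * s ≠ s * t := by
  intro hc
  set A := (s : Matrix (Fin 2) (Fin 2) E) with hA
  set B := (t : Matrix (Fin 2) (Fin 2) E) with hB
  have hBp : B ^ p = 1 := by
    have := congrArg (fun x : SpecialLinearGroup (Fin 2) E => (x : Matrix (Fin 2) (Fin 2) E)) ht
    simpa using this
  have hAB : A * B = B * A := by
    have := congrArg (fun x : SpecialLinearGroup (Fin 2) E => (x : Matrix (Fin 2) (Fin 2) E)) hc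
    simpa using this.symm
  have hAA : A * A = -1 := by
    have := congrArg (fun x : SpecialLinearGroup (Fin 2) E => (x : Matrix (Fin 2) (Fin 2) E)) hs
    simpa [pow_two] using this
  have htr : A.trace = 0 := by
    have h1 := ClassicalGeometry.PSL2Basic.sl2_mul_self s
    rw [← hA, hAA] at h1
    have h3 : A.trace • A = 0 := by
      have h4 : A.trace • A - 1 = -1 := h1.symm
      calc A.trace • A = (A.trace • A - 1) + 1 := by abel
        _ = 0 := by rw [h4]; abel
    rcases smul_eq_zero.1 h3 with h | h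
    · exact h
    · exfalso
      rw [h, mul_zero] at hAA
      have := congrFun (congrFun hAA 0) 0
      simp at this
  have h5 := comm_nil (A := A) (N := B - 1) (by rw [mul_sub, sub_mul, hAB, mul_one, one_mul]) (nil_of_pow hBp)
  rw [htr, zero_smul] at h5
  have h6 : A * (B - 1) = 0 := (smul_eq_zero.1 h5).resolve_left h2
  have h7 : B - 1 = 0 := by
    have h8 : A * (A * (B - 1)) = 0 := by rw [h6, mul_zero]
    rw [← mul_assoc, hAA, neg_mul, one_mul, neg_eq_zero] at h8
    exact h8
  apply ht1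
  apply Subtype.ext
  exact sub_eq_zero.1 h7

theorem not_comm_two [CharP E 2] {s t : SpecialLinearGroup (Fin 2) E}
    (hs : s ^ 3 = 1) (hs1 : s ≠ 1) (ht : t ^ 2 = 1) (ht1 : t ≠ 1) : t * s ≠ s * t := by
  intro hc
  have h2 : (2 : E) = 0 := CharTwo.two_eq_zero
  have : Fact (Nat.Prime 2) := ⟨Nat.prime_two⟩
  set A := (s : Matrix (Fin 2) (Fin 2) E) with hA
  set B := (t : Matrix (Fin 2) (Fin 2) E) with hB
  have hBp : B ^ 2 = 1 := by
    have := congrArg (fun x : SpecialLinearGroup (Fin 2) E => (x : Matrix (Fin 2) (Fin 2) E)) ht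
    simpa using this
  have hAB : A * B = B * A := by
    have := congrArg (fun x : SpecialLinearGroup (Fin 2) E => (x : Matrix (Fin 2) (Fin 2) E)) hc
    simpa using this.symm
  have h5 := comm_nil (A := A) (N := B - 1) (by rw [mul_sub, sub_mul, hAB, mul_one, one_mul]) (nil_of_pow (p := 2) hBp)
  rw [h2, zero_smul] at h5
  rcases smul_eq_zero.1 h5.symm with h | h
  · have h6 := ClassicalGeometry.PSL2Basic.sl2_sq_of_trace_zero h
    rw [ClassicalGeometry.PSL2Basic.neg_one_eq_one_SL2 h2] at h6
    apply hs1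
    rw [pow_succ, h6, one_mul] at hs
    exact hs
  · exact ht1 (Subtype.ext (sub_eq_zero.1 h))

/-- the elements of order at most two of `SL₂` in odd characteristic -/
theorem sq_one (h2 : (2 : E) ≠ 0) {s : SpecialLinearGroup (Fin 2) E} (hs : s ^ 2 = 1) : s = 1 ∨ s = -1 := by
  rw [← ClassicalGeometry.PSL2Basic.mem_center_SL2_iff, Matrix.SpecialLinearGroup.mem_center_iff]
  have h1 := ClassicalGeometry.PSL2Basic.sl2_mul_self s
  have h3 : (s : Matrix (Fin 2) (Fin 2) E) * s = 1 := by
    have := congrArg (fun x : SpecialLinearGroup (Fin 2) E => (x : Matrix (Fin 2) (Fin 2) E)) hs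
    simpa [pow_two] using this
  rw [h3] at h1
  set c := (s : Matrix (Fin 2) (Fin 2) E).trace with hc
  have h4 : c • (s : Matrix (Fin 2) (Fin 2) E) = (2 : E) • 1 := by
    rw [two_smul]
    calc c • (s : Matrix (Fin 2) (Fin 2) E) = (c • (s : Matrix (Fin 2) (Fin 2) E) - 1) + 1 := by abel
      _ = 1 + 1 := by rw [← h1]
  have hc0 : c ≠ 0 := by
    intro h
    rw [h, zero_smul] at h4
    have := congrFun (congrFun h4 0) 0
    simp at this
    exact h2 this.symm
  have h5 : (s : Matrix (Fin 2) (Fin 2) E) = (2 / c) • 1 := by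
    rw [div_eq_inv_mul, mul_smul, ← h4, smul_smul, inv_mul_cancel₀ hc0, one_smul]
  refine ⟨2 / c, ?_, ?_⟩
  · rw [Fintype.card_fin]
    have h6 := s.2
    rw [show (s.1 : Matrix (Fin 2) (Fin 2) E) = (2 / c) • 1 from h5, det_smul, det_one, mul_one, Fintype.card_fin] at h6
    exact h6
  · rw [h5]
    ext i j
    simp [Matrix.smul_apply, Matrix.one_apply, Matrix.scalar_apply, Matrix.diagonal_apply]

end mat

section core

variable {X : Type*} {H : Type*} [Group X] [Group H]

/-- `O_p` of a central quotient -/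
theorem pCore_eq_bot_of_surj [Finite X] {p : ℕ} [Fact p.Prime] (f : X →* H) (hf : Function.Surjective f)
    (hk : f.ker ≤ center X) (hX : pCore p X = ⊥) : pCore p H = ⊥ := by
  have hfinH : Finite H := Finite.of_surjective f hf
  have hNn : (pCore p H).Normal := Lib.Cores.pCore_normal p
  set N : Subgroup X := (pCore p H).comap f with hN
  have hNn' : N.Normal := hNn.comap f
  have hnil : Group.IsNilpotent (pCore p H) := (Lib.Cores.pCore_isPGroup (G := H) p).isNilpotent
  have hN1 : Group.IsNilpotent N := by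
    refine Subgroup.isNilpotent_of_ker_le_center (f.subgroupComap (pCore p H)) ?_
    intro x hx
    rw [mem_center_iff]
    intro y
    have h1 : (x : X) ∈ f.ker := by
      rw [MonoidHom.mem_ker] at hx ⊢
      exact congrArg Subtype.val hx
    exact Subtype.ext (mem_center_iff.1 (hk h1) y)
  have P : Sylow p N := default
  have hPn : (P : Subgroup N).Normal := by
    have h1 := (Group.isNilpotent_of_finite_tfae (G := N)).out 0 3
    exact (h1.mp hN1) p inferInstance P
  have hchar : (P : Subgroup N).Characteristic := Sylow.characteristic_of_normal P hPn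
  have hn : ((P : Subgroup N).map N.subtype).Normal := ConjAct.normal_of_characteristic_of_normal
  have h2 : (P : Subgroup N).map N.subtype ≤ pCore p X := Lib.Cores.le_pCore hn (P.isPGroup'.map _)
  rw [hX, le_bot_iff, (P : Subgroup N).map_eq_bot_iff_of_injective N.subtype_injective] at h2
  have h3 : ¬ p ∣ Nat.card N := by
    intro h
    have h4 := P.ne_bot_of_dvd_card h
    exact h4 h2
  by_contra hne
  obtain ⟨x, hx⟩ : ∃ x : pCore p H, orderOf x = p := by
    have : Nontrivial (pCore p H) := (nontrivial_iff_ne_bot _).2 hne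
    obtain ⟨n, hn0, hn⟩ := (Lib.Cores.pCore_isPGroup (G := H) p).nontrivial_iff_card.1 inferInstance
    refine exists_prime_orderOf_dvd_card' p ?_
    rw [hn]
    exact dvd_pow_self p hn0.ne'
  obtain ⟨y, hy⟩ := hf x
  have hyN : y ∈ N := by
    rw [hN, mem_comap, hy]
    exact x.2
  apply h3
  have h5 : orderOf ((f.subgroupComap (pCore p H)) ⟨y, hyN⟩) ∣ orderOf (⟨y, hyN⟩ : N) := orderOf_map_dvd _ _
  have h6 : (f.subgroupComap (pCore p H)) ⟨y, hyN⟩ = x := Subtype.ext hy
  rw [h6, hx] at h5
  exact h5.trans (orderOf_dvd_natCard _)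

/-- a group with a normal Sylow subgroup -/
theorem pCore_ne_bot_of_normalizer [Finite X] {p : ℕ} [Fact p.Prime] (P : Sylow p X) {K : Subgroup X}
    (hK : K ≤ normalizer ((P : Subgroup X) : Set X)) (hp : p ∣ Nat.card K) : pCore p K ≠ ⊥ := by
  intro h
  obtain ⟨x, hx⟩ := exists_prime_orderOf_dvd_card' p hp
  have h1 : (P : Subgroup X).subgroupOf K ≤ pCore p K := by
    refine Lib.Cores.le_pCore ?_ ?_
    · exact normal_subgroupOf_of_le_normalizer hK
    · exact P.isPGroup'.comap_subtype
  rw [h, le_bot_iff] at h1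
  have h2 : IsPGroup p (zpowers (x : X)) := by
    refine IsPGroup.of_card (n := 1) ?_
    rw [Nat.card_zpowers, Subgroup.orderOf_coe, hx, pow_one]
  have h3 := h2.inf_normalizer_sylow P
  have h4 : (x : X) ∈ (P : Subgroup X) := by
    have h5 : (x : X) ∈ zpowers (x : X) ⊓ (P : Subgroup X) := by
      rw [← h3]
      exact ⟨mem_zpowers _, hK x.2⟩
    exact h5.2
  have h5 : x ∈ (P : Subgroup X).subgroupOf K := h4
  rw [h1, mem_bot] at h5
  rw [h5, orderOf_one] at hx
  exact (Fact.out : p.Prime).ne_one hx.symm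

theorem pCore_A4 : pCore 2 (alternatingGroup (Fin 4)) ≠ ⊥ := by
  have h4 : Nat.card (Fin 4) = 4 := by simp
  intro h
  have h1 : alternatingGroup.kleinFour (Fin 4) ≤ pCore 2 (alternatingGroup (Fin 4)) :=
    Lib.Cores.le_pCore (alternatingGroup.normal_kleinFour h4)
      (IsPGroup.of_card (n := 2) (by rw [alternatingGroup.kleinFour_card_of_card_eq_four h4]; norm_num))
  rw [h, le_bot_iff] at h1
  have h2 := alternatingGroup.kleinFour_card_of_card_eq_four h4
  rw [h1, card_bot] at h2
  omega

theorem pCore_S4 : pCore 2 (Equiv.Perm (Fin 4)) ≠ ⊥ := by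
  have h4 : Nat.card (Fin 4) = 4 := by simp
  intro h
  have hc : (alternatingGroup.kleinFour (Fin 4)).Characteristic := alternatingGroup.characteristic_kleinFour h4
  have hn : ((alternatingGroup.kleinFour (Fin 4)).map (alternatingGroup (Fin 4)).subtype).Normal :=
    ConjAct.normal_of_characteristic_of_normal
  have hp : IsPGroup 2 (alternatingGroup.kleinFour (Fin 4)) :=
    IsPGroup.of_card (n := 2) (by rw [alternatingGroup.kleinFour_card_of_card_eq_four h4]; norm_num)
  have h1 : (alternatingGroup.kleinFour (Fin 4)).map (alternatingGroup (Fin 4)).subtype ≤ pCore 2 (Equiv.Perm (Fin 4)) :=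
    Lib.Cores.le_pCore hn (hp.map _)
  rw [h, le_bot_iff, map_eq_bot_iff_of_injective _ (subtype_injective _)] at h1
  have h2 := alternatingGroup.kleinFour_card_of_card_eq_four h4
  rw [h1, card_bot] at h2
  omega

end core

section num

/-- numbers of `PSL₂(p^k)` and `PGL₂(p^k)` -/
theorem num_lie {p k N g : ℕ} (hp : p.Prime) (hk : 0 < k) (hN : N * g = p ^ k * ((p ^ k) ^ 2 - 1)) (hg : g ∣ 2)
    (hg2 : p = 2 → g = 1) : (p ≠ 2 → 2 ∣ N) ∧ (p = 2 → 3 ∣ N) ∧ N.factorization p = k ∧ (p ^ k) ^ 2 - 1 ∣ 2 * N := by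
  have hp2 := hp.two_le
  have hpk : 2 ≤ p ^ k := by
    calc 2 ≤ p := hp2
      _ = p ^ 1 := (pow_one p).symm
      _ ≤ p ^ k := Nat.pow_le_pow_right hp.pos hk
  have hsq : 4 ≤ (p ^ k) ^ 2 := by nlinarith
  have hg0 : 0 < g := Nat.pos_of_dvd_of_pos hg (by norm_num)
  have hN0 : N ≠ 0 := by
    rintro rfl
    rw [zero_mul] at hN
    have : 0 < p ^ k * ((p ^ k) ^ 2 - 1) := Nat.mul_pos (by omega) (by omega)
    omega
  have hcop : ¬ p ∣ (p ^ k) ^ 2 - 1 := by
    intro h
    have h1 : p ∣ (p ^ k) ^ 2 := dvd_pow (dvd_pow_self p hk.ne') (by norm_num)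
    have h2 := (Nat.dvd_sub_iff_right (by omega) h1).1 h
    exact hp.one_lt.ne' (Nat.dvd_one.1 h2)
  obtain ⟨g', hg'⟩ := hg
  refine ⟨?_, ?_, ?_, ?_⟩
  · intro hne
    have hodd : Odd (p ^ k) := (hp.odd_of_ne_two hne).pow
    have h8 : 8 ∣ (p ^ k) ^ 2 - 1 := Nat.eight_dvd_sq_sub_one_of_odd hodd
    have h1 : 8 ∣ N * g := by rw [hN]; exact h8.mul_left _
    have h2 : 8 ∣ N * 2 := by rw [hg', ← mul_assoc]; exact h1.mul_right _
    omega
  · intro he
    subst he
    rw [hg2 rfl, mul_one] at hN
    rw [hN]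
    refine Dvd.dvd.mul_left ?_ _
    rw [← pow_mul, mul_comm k 2, pow_mul]
    have h1 : (4 : ℕ) ^ k ≡ 1 ^ k [MOD 3] := Nat.ModEq.pow k (by decide)
    rw [one_pow] at h1
    exact (Nat.modEq_iff_dvd' (Nat.one_le_pow _ _ (by norm_num))).1 h1.symm
  · have h1 : (N * g).factorization p = k := by
      rw [hN, Nat.factorization_mul (by positivity) (by omega), Finsupp.add_apply, Nat.factorization_pow,
        Finsupp.smul_apply, hp.factorization_self, smul_eq_mul, mul_one, Nat.factorization_eq_zero_of_not_dvd hcop,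
        add_zero]
    have h2 : ¬ p ∣ g := by
      intro h
      by_cases h3 : p = 2
      · rw [hg2 h3] at h
        exact hp.one_lt.ne' (Nat.dvd_one.1 h)
      · have h4 : p ∣ 2 := h.trans ⟨g', hg'⟩
        exact h3 ((Nat.prime_dvd_prime_iff_eq hp Nat.prime_two).1 h4)
    rw [Nat.factorization_mul hN0 hg0.ne', Finsupp.add_apply, Nat.factorization_eq_zero_of_not_dvd h2, add_zero] at h1
    exact h1
  · have h1 : 2 * N = g' * (N * g) := by rw [hg']; ring
    rw [h1, hN]
    exact (Dvd.intro_left _ rfl).mul_left _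

end num

end Cfsg.Agent.H898.Rg920
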