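import Cfsg.Agent.H920.Rg.StmtA
import Cfsg.Agent.H898.Rg920.DickA
import Cfsg.Agent.S0799

/-!
# S3691, residual case D+1 beta, piece A (helper898)

Finite subgroups of `GL₂(E)` of order divisible by `p = char E` with `O_p = 1`, from Dickson's list (S0799).
-/

set_option autoImplicit false

open Cfsg Matrix Subgroup

namespace Cfsg.Agent.H898.Rg920

universe u v

theorem p_dvd_12 {p : ℕ} (hp : p.Prime) (h : p ∣ 12) : p = 2 ∨ p = 3 := by
  have h1 := Nat.le_of_dvd (by norm_num) h
  have h2 := hp.two_le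
  interval_cases p <;> revert hp h <;> decide

theorem p_dvd_24 {p : ℕ} (hp : p.Prime) (h : p ∣ 24) : p = 2 ∨ p = 3 := by
  have h1 := Nat.le_of_dvd (by norm_num) h
  have h2 := hp.two_le
  interval_cases p <;> revert hp h <;> decide

theorem p_dvd_60 {p : ℕ} (hp : p.Prime) (h : p ∣ 60) : p = 2 ∨ p = 3 ∨ p = 5 := by
  have h1 : p ∣ 12 ∨ p ∣ 5 := hp.dvd_mul.1 (show p ∣ 12 * 5 from h)
  rcases h1 with h1 | h1
  · rcases p_dvd_12 hp h1 with h2 | h2
    · exact Or.inl h2
    · exact Or.inr (Or.inl h2)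
  · exact Or.inr (Or.inr ((Nat.prime_dvd_prime_iff_eq hp (by norm_num)).1 h1))

theorem fac_le_one {p n : ℕ} (hp : p.Prime) (hn : n ≠ 0) (h : ¬ p ^ 2 ∣ n) : n.factorization p ≤ 1 := by
  by_contra hcon
  push Not at hcon
  exact h ((hp.pow_dvd_iff_le_factorization hn).2 hcon)

theorem fac_60 : (60 : ℕ).factorization 2 = 2 := by
  apply le_antisymm
  · by_contra hcon
    push Not at hcon
    have := (Nat.prime_two.pow_dvd_iff_le_factorization (n := 60) (by norm_num)).2 (show 3 ≤ _ from hcon)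
    omega
  · exact (Nat.prime_two.pow_dvd_iff_le_factorization (n := 60) (by norm_num)).1 (by norm_num)

theorem pCore_of_equiv {X Y : Type*} [Group X] [Group Y] (e : X ≃* Y) {p : ℕ} (h : pCore p X = ⊥) : pCore p Y = ⊥ := by
  rw [← Lib.Cores.map_equiv_pCore e p, h, Subgroup.map_bot]

/-- the numbers of a subgroup of `PSL₂` with `O_p = 1` -/
theorem numH {E : Type v} [Field E] [Fintype E] {p : ℕ} [hp : Fact p.Prime] [CharP E p]
    (H : Subgroup (ProjectiveSpecialLinearGroup (Fin 2) E)) (hH : p ∣ Nat.card H) (hO : pCore p H = ⊥) :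
    (p ≠ 2 → 2 ∣ Nat.card H) ∧ (p = 2 → (Nat.card H).factorization 2 = 1 ∨ 3 ∣ Nat.card H) ∧
      ((Nat.card H).factorization p ≤ 1 ∨ (p ^ (Nat.card H).factorization p) ^ 2 - 1 ∣ 2 * Nat.card H) := by
  classical
  obtain ⟨n, _, hq⟩ := FiniteField.card E p
  have hpq : p ∣ Fintype.card E := by rw [hq]; exact dvd_pow_self p n.ne_zero
  have hq1 : 1 < Fintype.card E := Fintype.one_lt_card
  rcases Cfsg.Agent.S0799.result (F := E) rfl p H with h | h | h | h | h | h
  · obtain ⟨k, hk, h⟩ := h
    -- `p` does not divide `k`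
    have hpk : ¬ p ∣ k := by
      intro hpk
      have hg : Nat.gcd 2 (Fintype.card E - 1) ∣ Fintype.card E - 1 := Nat.gcd_dvd_right _ _
      have hg' : Nat.gcd 2 (Fintype.card E - 1) ∣ Fintype.card E + 1 := by
        have h1 : Fintype.card E + 1 = (Fintype.card E - 1) + 2 := by omega
        rw [h1]
        exact dvd_add hg (Nat.gcd_dvd_left _ _)
      rcases hk with hk | hk
      · have h1 : p ∣ Fintype.card E + 1 := (hpk.trans hk).trans (Nat.div_dvd_of_dvd hg')
        exact hp.out.one_lt.ne' (Nat.dvd_one.1 ((Nat.dvd_add_right hpq).1 h1))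
      · have h1 : p ∣ Fintype.card E - 1 := (hpk.trans hk).trans (Nat.div_dvd_of_dvd hg)
        exact hp.out.one_lt.ne' (Nat.dvd_one.1 ((Nat.dvd_sub_iff_right (by omega) hpq).1 h1))
    rcases h with ⟨_, h⟩ | ⟨⟨e⟩⟩
    · exact absurd (h ▸ hH) hpk
    · have hc : Nat.card H = 2 * k := by rw [Nat.card_congr e.toEquiv, DihedralGroup.nat_card]
      rw [hc] at hH ⊢
      have hp2 : p = 2 := by
        rcases hp.out.dvd_mul.1 hH with h1 | h1
        · exact (Nat.prime_dvd_prime_iff_eq hp.out Nat.prime_two).1 h1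
        · exact absurd h1 hpk
      have hk0 : k ≠ 0 := by
        rintro rfl
        exact hpk (dvd_zero p)
      have hf : (2 * k).factorization p = 1 := by
        rw [Nat.factorization_mul (by norm_num) hk0, Finsupp.add_apply, Nat.factorization_eq_zero_of_not_dvd hpk, add_zero,
          hp2, Nat.prime_two.factorization_self]
      exact ⟨fun h => absurd hp2 h, fun _ => Or.inl (by rw [← hf, hp2]), Or.inl (by rw [hf])⟩
  · obtain ⟨P, K, hK, ⟨e⟩⟩ := h
    have h1 := pCore_of_equiv e hO
    have h2 : p ∣ Nat.card K := by rw [← Nat.card_congr e.toEquiv]; exact hH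
    exact absurd h1 (pCore_ne_bot_of_normalizer P hK h2)
  · obtain ⟨e⟩ := h
    have h1 := pCore_of_equiv e hO
    have hc : Nat.card H = 12 := by
      rw [Nat.card_congr e.toEquiv, nat_card_alternatingGroup]
      simp [Nat.factorial]
    rw [hc] at hH ⊢
    rcases p_dvd_12 hp.out hH with h2 | h2
    · rw [h2] at h1
      exact absurd h1 pCore_A4
    · refine ⟨fun _ => by norm_num, fun h => by omega, Or.inl (fac_le_one hp.out (by norm_num) ?_)⟩
      rw [h2]
      norm_num
  · obtain ⟨e⟩ := h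
    have h1 := pCore_of_equiv e hO
    have hc : Nat.card H = 24 := by
      rw [Nat.card_congr e.toEquiv, Nat.card_perm]
      simp [Nat.factorial]
    rw [hc] at hH ⊢
    rcases p_dvd_24 hp.out hH with h2 | h2
    · rw [h2] at h1
      exact absurd h1 pCore_S4
    · refine ⟨fun _ => by norm_num, fun h => by omega, Or.inl (fac_le_one hp.out (by norm_num) ?_)⟩
      rw [h2]
      norm_num
  · obtain ⟨e⟩ := h
    have hc : Nat.card H = 60 := by
      rw [Nat.card_congr e.toEquiv, nat_card_alternatingGroup]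
      simp [Nat.factorial]
    rw [hc] at hH ⊢
    rcases p_dvd_60 hp.out hH with h2 | h2 | h2
    · refine ⟨fun _ => by norm_num, fun _ => Or.inr (by norm_num), Or.inr ?_⟩
      rw [h2, fac_60]
      norm_num
    · refine ⟨fun _ => by norm_num, fun _ => Or.inr (by norm_num), Or.inl (fac_le_one hp.out (by norm_num) ?_)⟩
      rw [h2]
      norm_num
    · refine ⟨fun _ => by norm_num, fun _ => Or.inr (by norm_num), Or.inl (fac_le_one hp.out (by norm_num) ?_)⟩
      rw [h2]
      norm_num
  · obtain ⟨K, _, _, m, hm, h⟩ := h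
    have hK1 : 1 < Fintype.card K := Fintype.one_lt_card
    have hm0 : m ≠ 0 := by
      rintro rfl
      rw [pow_zero] at hm
      omega
    obtain ⟨k, _, hk⟩ := (Nat.dvd_prime_pow hp.out).1 (show Fintype.card K ∣ p ^ (n : ℕ) by
      rw [← hq, ← hm]; exact dvd_pow_self _ hm0)
    have hk0 : 0 < k := by
      rcases Nat.eq_zero_or_pos k with h0 | h0
      · rw [h0, pow_zero] at hk
        omega
      · exact h0
    have key : ∃ g, g ∣ 2 ∧ (p = 2 → g = 1) ∧ Nat.card H * g = p ^ k * ((p ^ k) ^ 2 - 1) := by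
      rcases h with ⟨⟨e⟩⟩ | ⟨⟨e⟩⟩
      · refine ⟨Nat.gcd 2 (Fintype.card K - 1), Nat.gcd_dvd_left _ _, ?_, ?_⟩
        · intro h2
          rw [hk, h2]
          have h3 : Odd (2 ^ k - 1) := by
            have : Even (2 ^ k) := (even_two.pow_of_ne_zero hk0.ne')
            exact Nat.Even.sub_odd (Nat.one_le_two_pow) this odd_one
          exact Nat.coprime_iff_gcd_eq_one.1 (Nat.coprime_two_left.2 h3)
        · rw [Nat.card_congr e.toEquiv, ClassicalGeometry.PSL2Basic.card_PSL2_gcd, hk]
      · exact ⟨1, one_dvd _, fun _ => rfl, by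
          rw [Nat.card_congr e.toEquiv, ClassicalGeometry.PSL2Basic.card_PGL2, hk, mul_one]⟩
    obtain ⟨g, hg1, hg2, hg3⟩ := key
    obtain ⟨a1, a2, a3, a4⟩ := num_lie hp.out hk0 hg3 hg1 hg2
    exact ⟨a1, fun h => Or.inr (a2 h), Or.inr (by rw [a3]; exact a4)⟩

theorem dick : Cfsg.Agent.H920.Rg.StmtDick.{u, v} := by
  classical
  intro E _ _ p hp _ C _ _ φ hφ hpC hO
  set C0 : Subgroup C := (GeneralLinearGroup.det.comp φ).ker with hC0
  have hdet : ∀ c ∈ C0, ((φ c : GL (Fin 2) E) : Matrix (Fin 2) (Fin 2) E).det = 1 := by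
    intro c hc
    have h1 : GeneralLinearGroup.det (φ c) = 1 := hc
    have h2 := congrArg (fun x : Eˣ => (x : E)) h1
    exact h2
  let ψ : C0 →* SpecialLinearGroup (Fin 2) E :=
    { toFun := fun c => ⟨(φ c : Matrix (Fin 2) (Fin 2) E), hdet c c.2⟩
      map_one' := Subtype.ext (by simp)
      map_mul' := fun a b => Subtype.ext (by
        change ((φ ((a : C) * (b : C)) : GL (Fin 2) E) : Matrix (Fin 2) (Fin 2) E) = (φ a : Matrix (Fin 2) (Fin 2) E) * φ b
        rw [map_mul]
        rfl) }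
  have hψ : Function.Injective ψ := by
    intro a b hab
    have h1 : (φ a : Matrix (Fin 2) (Fin 2) E) = φ b := congrArg (fun x : SpecialLinearGroup (Fin 2) E => x.1) hab
    exact Subtype.ext (hφ (Units.ext h1))
  -- the index
  obtain ⟨n, _, hq⟩ := FiniteField.card E p
  have hidx : ¬ p ∣ C0.index := by
    intro h
    have h1 : C0.index ∣ Nat.card Eˣ := by
      rw [hC0, Subgroup.index_ker]
      exact Subgroup.card_subgroup_dvd_card _
    rw [Nat.card_units, Nat.card_eq_fintype_card] at h1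
    have h2 : p ∣ Fintype.card E - 1 := h.trans h1
    have hpq : p ∣ Fintype.card E := by rw [hq]; exact dvd_pow_self p n.ne_zero
    have hq1 : 1 < Fintype.card E := Fintype.one_lt_card
    exact hp.out.one_lt.ne' (Nat.dvd_one.1 ((Nat.dvd_sub_iff_right (by omega) hpq).1 h2))
  have hcC : Nat.card C = Nat.card C0 * C0.index := (Subgroup.card_mul_index C0).symm
  have hfC : (Nat.card C).factorization p = (Nat.card C0).factorization p := by
    rw [hcC, Nat.factorization_mul Nat.card_pos.ne' (Subgroup.index_ne_zero_of_finite), Finsupp.add_apply,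
      Nat.factorization_eq_zero_of_not_dvd hidx, add_zero]
  have hpC0 : p ∣ Nat.card C0 := by
    rw [hcC] at hpC
    exact (hp.out.dvd_mul.1 hpC).resolve_right hidx
  have hO0 : pCore p C0 = ⊥ := by
    have h1 := Lib.Cores.map_subtype_pCore p (N := C0) (by rw [hC0]; infer_instance)
    rw [hO, inf_bot_eq] at h1
    rwa [(pCore p C0).map_eq_bot_iff_of_injective C0.subtype_injective] at h1
  -- the image in `PSL₂`
  let Ψ : C0 →* ProjectiveSpecialLinearGroup (Fin 2) E := (QuotientGroup.mk' _).comp ψ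
  have hkerm : ∀ c, c ∈ Ψ.ker ↔ ψ c ∈ center (SpecialLinearGroup (Fin 2) E) := by
    intro c
    rw [MonoidHom.mem_ker]
    exact QuotientGroup.eq_one_iff _
  have hkc : Ψ.ker ≤ center C0 := by
    intro c hc
    rw [hkerm, mem_center_iff] at hc
    rw [mem_center_iff]
    intro x
    apply hψ
    rw [map_mul, map_mul]
    exact hc _
  have hker2 : Nat.card Ψ.ker ∣ 2 ∧ (p = 2 → Nat.card Ψ.ker = 1) := by
    have h1 : Nat.card Ψ.ker ∣ Nat.card (center (SpecialLinearGroup (Fin 2) E)) := by
      refine Subgroup.card_dvd_of_injective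
        ((ψ.comp Ψ.ker.subtype).codRestrict (center _) fun c => (hkerm c).1 c.2) ?_
      intro a b hab
      have h2 : ψ a = ψ b := congrArg Subtype.val hab
      exact Subtype.ext (hψ h2)
    by_cases h2 : (2 : E) = 0
    · rw [ClassicalGeometry.PSL2Basic.card_center_SL2_even h2] at h1
      exact ⟨h1.trans (one_dvd _), fun _ => Nat.dvd_one.1 h1⟩
    · rw [ClassicalGeometry.PSL2Basic.card_center_SL2_odd h2] at h1
      refine ⟨h1, fun hp2 => absurd ?_ h2⟩
      have h3 := CharP.cast_eq_zero E p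
      rw [hp2] at h3
      exact_mod_cast h3
  have hpk : ¬ p ∣ Nat.card Ψ.ker := by
    intro h
    by_cases h2 : p = 2
    · rw [hker2.2 h2] at h
      exact hp.out.one_lt.ne' (Nat.dvd_one.1 h)
    · exact h2 ((Nat.prime_dvd_prime_iff_eq hp.out Nat.prime_two).1 (h.trans hker2.1))
  have hcard : Nat.card C0 = Nat.card Ψ.range * Nat.card Ψ.ker := by
    rw [← Subgroup.index_ker, mul_comm, Subgroup.card_mul_index]
  have hfH : (Nat.card C0).factorization p = (Nat.card Ψ.range).factorization p := by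
    rw [hcard, Nat.factorization_mul Nat.card_pos.ne' Nat.card_pos.ne', Finsupp.add_apply,
      Nat.factorization_eq_zero_of_not_dvd hpk, add_zero]
  have hpH : p ∣ Nat.card Ψ.range := by
    rw [hcard] at hpC0
    exact (hp.out.dvd_mul.1 hpC0).resolve_right hpk
  have hOH : pCore p Ψ.range = ⊥ := by
    refine pCore_eq_bot_of_surj Ψ.rangeRestrict Ψ.rangeRestrict_surjective ?_ hO0
    rw [MonoidHom.ker_rangeRestrict]
    exact hkc
  obtain ⟨n1, n2, n3⟩ := numH Ψ.range hpH hOH
  obtain ⟨t, ht⟩ := exists_prime_orderOf_dvd_card' p hpC0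
  have htp : ψ t ^ p = 1 := by rw [← map_pow, ← ht, pow_orderOf_eq_one, map_one]
  have ht1 : ψ t ≠ 1 := by
    intro h
    rw [← map_one ψ] at h
    rw [hψ h, orderOf_one] at ht
    exact hp.out.ne_one ht.symm
  refine ⟨C0, hdet, ?_, ?_, ?_⟩
  · intro hp2
    have h2 : (2 : E) ≠ 0 := by
      intro h
      have h3 := (CharP.cast_eq_zero_iff E p 2).1 (by exact_mod_cast h)
      exact hp2 ((Nat.prime_dvd_prime_iff_eq hp.out Nat.prime_two).1 h3)
    have : Fact (Nat.Prime 2) := ⟨Nat.prime_two⟩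
    obtain ⟨⟨_, s, rfl⟩, hx⟩ := exists_prime_orderOf_dvd_card' 2 (n1 hp2)
    have hs1 : Ψ s ≠ 1 := by
      intro h
      have h3 : (⟨Ψ s, s, rfl⟩ : Ψ.range) = 1 := Subtype.ext h
      rw [h3, orderOf_one] at hx
      omega
    have hs2 : Ψ (s ^ 2) = 1 := by
      rw [map_pow]
      have h3 := pow_orderOf_eq_one (⟨Ψ s, s, rfl⟩ : Ψ.range)
      rw [hx] at h3
      exact congrArg Subtype.val h3
    have hs3 : ψ s ^ 2 = 1 ∨ ψ s ^ 2 = -1 := by
      rw [← map_pow, ← ClassicalGeometry.PSL2Basic.mem_center_SL2_iff, ← hkerm]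
      exact hs2
    have hs4 : ψ s ∉ center (SpecialLinearGroup (Fin 2) E) := by
      rw [← hkerm]
      exact hs1
    have hs5 : ψ s ^ 2 = -1 := by
      refine hs3.resolve_left fun h => hs4 ?_
      rw [ClassicalGeometry.PSL2Basic.mem_center_SL2_iff]
      exact sq_one h2 h
    refine ⟨s, s.2, ?_, t, t.2, ?_⟩
    · have h4 : orderOf (ψ s) = 4 := by
        have h5 : ψ s ^ (2 ^ 2) = 1 := by
          rw [show (2 : ℕ) ^ 2 = 2 * 2 by norm_num, pow_mul, hs5]
          simp
        have h6 : ¬ ψ s ^ (2 ^ 1) = 1 := by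
          rw [pow_one, hs5]
          exact ClassicalGeometry.PSL2Basic.neg_one_ne_one_SL2 h2
        exact orderOf_eq_prime_pow h6 h5
      rw [Subgroup.orderOf_coe, ← orderOf_injective ψ hψ, h4]
    · intro h
      have h3 : t * s = s * t := Subtype.ext h
      have h4 := congrArg ψ h3
      rw [map_mul, map_mul] at h4
      exact not_comm_odd h2 hs5 htp ht1 h4
  · intro hp2
    subst hp2
    rcases n2 rfl with h | h
    · left
      rw [hfC, hfH, h]
    · right
      have : Fact (Nat.Prime 3) := ⟨Nat.prime_three⟩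
      have h3 : 3 ∣ Nat.card C0 := by rw [hcard]; exact h.mul_right _
      obtain ⟨s, hs⟩ := exists_prime_orderOf_dvd_card' 3 h3
      refine ⟨s, s.2, by rw [Subgroup.orderOf_coe, hs], t, t.2, ?_⟩
      intro h
      have h3 : t * s = s * t := Subtype.ext h
      have h4 := congrArg ψ h3
      rw [map_mul, map_mul] at h4
      refine not_comm_two (s := ψ s) (t := ψ t) ?_ ?_ htp ht1 h4
      · rw [← map_pow, ← hs, pow_orderOf_eq_one, map_one]
      · intro h5
        rw [← map_one ψ] at h5
        rw [hψ h5, orderOf_one] at hs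
        omega
  · rw [hfC, hfH]
    rcases n3 with h | h
    · exact Or.inl h
    · right
      refine h.trans ?_
      rw [hcard, ← mul_assoc]
      exact Dvd.intro _ rfl

end Cfsg.Agent.H898.Rg920
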