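import Cfsg.Agent.H920.Rg.StmtC
import Cfsg.Agent.H890.SpIndex

/-!
# S3691, residual case D+1 beta, piece C (helper898)

A semisimilitude of order at most 2 commuting with a subgroup `L` of order `2^b (2^{2b} - 1)` of `E Q` lies in `E Q` (`p = 2`).
-/

set_option autoImplicit false

open Module QuadraticMap Cfsg.Agent.LieClassical.OrthCore Cfsg.Agent.LieClassical.OrthTrans
  Cfsg.Agent.ClassicalGeometry.OrthSemi Cfsg.Agent.H449.Reg Cfsg.Agent.H890.SpParity

namespace Cfsg.Agent.H898.Rg920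

universe u v

variable {F : Type u} {V : Type v} [Field F] [AddCommGroup V] [Module F V] {Q : QuadraticForm F V}

theorem two_zero [Finite F] {f : ℕ} (hF : Nat.card F = 2 ^ f) : (2 : F) = 0 := by
  classical
  have := Fintype.ofFinite F
  have h1 : ((Fintype.card F : ℕ) : F) = 0 := FiniteField.cast_card_eq_zero F
  rw [← Nat.card_eq_fintype_card, hF] at h1
  push_cast at h1
  exact eq_zero_of_pow_eq_zero h1

/-- in even characteristic the isometries of the right parity are in `E Q` -/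
theorem mem_E_of_even [Finite F] (hG : Good Q) (h2 : (2 : F) = 0) {g : V ≃ₗ[F] V} (hg : g ∈ O Q)
    (he : Even (finrank F (fix g) + finrank F V)) : g ∈ E Q := by
  have : FiniteDimensional F V := Module.finite_of_finrank_pos (by have := hG.dim; omega)
  obtain ⟨x, y, hxy⟩ := hG.exists_hyp
  obtain ⟨w, hw0, _, hw1, hw2⟩ := hG.perp x y hxy
  have hsq : ∀ x : F, ∃ y, y ^ 2 = x := by
    have hinj : Function.Injective (fun y : F => y ^ 2) := by
      intro a b hab
      have h3 : (a - b) ^ 2 = 0 := by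
        have h4 : a ^ 2 = b ^ 2 := hab
        linear_combination h4 + (b ^ 2 - a * b) * h2
      exact sub_eq_zero.1 (eq_zero_of_pow_eq_zero h3)
    exact fun x => Finite.injective_iff_surjective.1 hinj x
  have H : Hyp2 Q x y := ⟨h2, hsq, hG.nondeg, hxy.left, hxy.right, hxy.pair, w, hw0, hw1, hw2⟩
  rcases H.mem_O_cases hg with h | ⟨e, he', rfl⟩
  · exact h
  · exact absurd he (odd_refl_E H.nd he' _)

/-- an element of prime order `r` without fixed vectors on a subspace -/
theorem dvd_finrank [Finite F] [FiniteDimensional F V] {f m r : ℕ} (hF : Nat.card F = 2 ^ f) (hf : 0 < f) (hr : r.Prime)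
    (ho : orderOf (2 : ZMod r) = f * m) {y : V ≃ₗ[F] V} (hy : orderOf y = r) (hfix : ∀ v, y v = v → v = 0)
    (U : Submodule F V) (hU : ∀ u ∈ U, y u ∈ U) : m ∣ finrank F U := by
  classical
  have := Fact.mk hr
  have hV : Finite V := Module.finite_of_finite F
  -- the action of `⟨y⟩` on `U`
  have hpow : ∀ x ∈ Subgroup.zpowers y, ∀ u ∈ U, x u ∈ U := by
    have hfin : IsOfFinOrder y := by
      rw [← orderOf_pos_iff, hy]
      exact hr.pos
    intro x hx u hu
    obtain ⟨n, rfl⟩ := (hfin.mem_powers_iff_mem_zpowers.2 hx)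
    change (y ^ n) u ∈ U
    induction n with
    | zero => exact hu
    | succ n ih =>
      have ih' := ih (hfin.mem_powers_iff_mem_zpowers.1 ⟨n, rfl⟩)
      rw [pow_succ']
      exact hU _ ih'
  let _ : MulAction (Subgroup.zpowers y) U :=
    { smul := fun x u => ⟨(x : V ≃ₗ[F] V) u, hpow x x.2 u u.2⟩
      one_smul := fun u => Subtype.ext rfl
      mul_smul := fun a b u => Subtype.ext rfl }
  have hp : IsPGroup r (Subgroup.zpowers y) := IsPGroup.of_card (n := 1) (by rw [Nat.card_zpowers, hy, pow_one])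
  have h1 := hp.card_modEq_card_fixedPoints U
  have h2 : Nat.card (MulAction.fixedPoints (Subgroup.zpowers y) U) = 1 := by
    rw [Nat.card_eq_one_iff_unique]
    refine ⟨⟨fun a b => ?_⟩, ⟨⟨0, fun x => Subtype.ext (map_zero (x : V ≃ₗ[F] V))⟩⟩⟩
    have key : ∀ c : MulAction.fixedPoints (Subgroup.zpowers y) U, ((c : U) : V) = 0 := by
      intro c
      refine hfix _ ?_
      exact congrArg Subtype.val (c.2 ⟨y, Subgroup.mem_zpowers y⟩)
    exact Subtype.ext (Subtype.ext ((key a).trans (key b).symm))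
  rw [h2, Module.natCard_eq_pow_finrank (K := F), hF] at h1
  have h3 : (2 : ZMod r) ^ (f * finrank F U) = 1 := by
    have h4 := (ZMod.natCast_eq_natCast_iff _ _ r).2 h1
    push_cast at h4
    rw [pow_mul]
    exact h4
  have h5 := orderOf_dvd_of_pow_eq_one h3
  rw [ho] at h5
  exact Nat.dvd_of_mul_dvd_mul_left hf h5

/-- an orbit of a nonzero vector has at least `2^{2b} - 1` elements -/
theorem orbit_ge [Finite V] {b : ℕ} (hb : 0 < b) {L : Subgroup (V ≃ₗ[F] V)} (hL : Nat.card L = 2 ^ b * ((2 ^ b) ^ 2 - 1))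
    (hfix : ∀ x ∈ L, (orderOf x).Prime → orderOf x ≠ 2 → ∀ v, x v = v → v = 0) {v : V} (hv : v ≠ 0) :
    (2 ^ b) ^ 2 - 1 ≤ (MulAction.orbit L v).ncard := by
  classical
  have hpos : 0 < (2 ^ b) ^ 2 - 1 := by
    have h1 : 2 ≤ 2 ^ b := by
      calc 2 = 2 ^ 1 := rfl
        _ ≤ 2 ^ b := Nat.pow_le_pow_right (by norm_num) hb
    have h2 : 2 * 2 ≤ (2 ^ b) ^ 2 := by rw [pow_two]; exact Nat.mul_le_mul h1 h1
    omega
  have hfinL : Finite L := Nat.finite_of_card_ne_zero (by rw [hL]; positivity)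
  set St := MulAction.stabilizer L v with hSt
  -- the stabiliser is a 2-group
  have h1 : ∀ {d : ℕ}, d.Prime → d ∣ Nat.card St → d = 2 := by
    intro d hd hdvd
    by_contra hne
    have := Fact.mk hd
    obtain ⟨x, hx⟩ := exists_prime_orderOf_dvd_card' d hdvd
    have h2 : orderOf (((x : L) : V ≃ₗ[F] V)) = d := by
      rw [Subgroup.orderOf_coe, Subgroup.orderOf_coe, hx]
    exact hv (hfix _ (x : L).2 (by rw [h2]; exact hd) (by rw [h2]; exact hne) v x.2)
  have h2 := Nat.eq_prime_pow_of_unique_prime_dvd (Nat.card_pos (α := St)).ne' h1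
  set k := (Nat.card St).primeFactorsList.length
  have h3 : 2 ^ k ∣ 2 ^ b * ((2 ^ b) ^ 2 - 1) := by
    rw [← h2, ← hL]
    exact Subgroup.card_subgroup_dvd_card St
  have hodd : Nat.Coprime (2 ^ k) ((2 ^ b) ^ 2 - 1) := by
    refine Nat.Coprime.pow_left k ?_
    rw [Nat.coprime_two_left, Nat.odd_iff]
    have h4 : (2 ^ b) ^ 2 = 2 * 2 ^ (2 * b - 1) := by
      rw [← pow_mul, ← pow_succ']
      congr 1
      omega
    omega
  have h4 : 2 ^ k ≤ 2 ^ b := Nat.le_of_dvd (by positivity) (hodd.dvd_of_dvd_mul_right h3)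
  have h5 : Nat.card St * (MulAction.orbit L v).ncard = Nat.card L := by
    rw [← MulAction.index_stabilizer, Subgroup.card_mul_index]
  rw [h2, hL] at h5
  by_contra hcon
  push Not at hcon
  have h6 : 2 ^ k * (MulAction.orbit L v).ncard < 2 ^ b * ((2 ^ b) ^ 2 - 1) :=
    lt_of_le_of_lt (Nat.mul_le_mul_right _ h4) (Nat.mul_lt_mul_of_pos_left hcon (by positivity))
  omega

/-- the semilinear case -/
theorem false_of_semi [Finite F] [FiniteDimensional F V] (hG : Good Q) {f m b : ℕ} (hF : Nat.card F = 2 ^ f) (hf : 0 < f)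
    (hm : 4 ≤ m) (hd : finrank F V = 2 * m) (hbm : 2 * b = f * m) {L : Subgroup (V ≃ₗ[F] V)} (hLE : L ≤ E Q)
    (hL : Nat.card L = 2 ^ b * ((2 ^ b) ^ 2 - 1))
    (hfix : ∀ x ∈ L, (orderOf x).Prime → orderOf x ≠ 2 → ∀ v, x v = v → v = 0) {M : Equiv.Perm V} {σ : F ≃+* F} {c : F}
    (hM : IsSS Q σ c M) (hMM : ∀ v, M (M v) = v) (hc : ∀ x ∈ L, ∀ v, M (x v) = x (M v)) {l : F} (hl : σ l ≠ l) : False := by
  classical
  have hV : Finite V := Module.finite_of_finite F
  have h2 := two_zero hF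
  have hb : 0 < b := by
    rcases Nat.eq_zero_or_pos b with h | h
    · exfalso
      rw [h, mul_zero] at hbm
      rcases Nat.mul_eq_zero.1 hbm.symm with h1 | h1 <;> omega
    · exact h
  have hneg : ∀ x : V, x + x = 0 := fun x => by rw [← two_smul F, h2, zero_smul]
  have hll : ∀ v, M (M v) = v := hMM
  -- `σ` is an involution
  have hV0 : ∃ v : V, v ≠ 0 := by
    obtain ⟨x, hx, _⟩ := hG.sing
    exact ⟨x, hx⟩
  have hσσ : ∀ a, σ (σ a) = a := by
    intro a
    obtain ⟨v, hv⟩ := hV0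
    have h1 := hMM (a • v)
    rw [hM.smul, hM.smul, hMM] at h1
    have h3 : (σ (σ a) - a) • v = 0 := by rw [sub_smul, h1, sub_self]
    exact sub_eq_zero.1 ((smul_eq_zero.1 h3).resolve_right hv)
  -- the fixed vectors
  set V0 : Set V := {v | M v = v} with hV0def
  have hmem : ∀ v, v ∈ V0 ↔ M v = v := fun v => Iff.rfl
  have hadd : ∀ u ∈ V0, ∀ v ∈ V0, u + v ∈ V0 := by
    intro u hu v hv
    rw [hmem] at *
    rw [hM.add, hu, hv]
  have ha : ∀ x, x + M x ∈ V0 := by
    intro x
    rw [hmem, hM.add, hMM, add_comm]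
  have hb' : ∀ x, l • x + σ l • M x ∈ V0 := by
    intro x
    rw [hmem, hM.add, hM.smul, hM.smul, hMM, hσσ, add_comm]
  have hdec : ∀ x, x = (l - σ l)⁻¹ • ((l • x + σ l • M x) - σ l • (x + M x)) := by
    intro x
    have h1 : (l • x + σ l • M x) - σ l • (x + M x) = (l - σ l) • x := by
      rw [smul_add, sub_smul]
      abel
    rw [h1, smul_smul, inv_mul_cancel₀ (sub_ne_zero.2 hl.symm), one_smul]
  -- the number of fixed vectors
  have hcard : V0.ncard ≤ (2 ^ b) ^ 2 := by
    have hinj : Function.Injective (fun p : V0 × V0 => (p.1 : V) + l • (p.2 : V)) := by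
      rintro ⟨⟨x, hx⟩, ⟨y, hy⟩⟩ ⟨⟨x', hx'⟩, ⟨y', hy'⟩⟩ e
      change x + l • y = x' + l • y' at e
      rw [hmem] at hx hy hx' hy'
      have e2 := congrArg M e
      rw [hM.add, hM.add, hM.smul, hM.smul, hx, hy, hx', hy'] at e2
      have e3 : (l - σ l) • (y - y') = 0 := by
        have h1 : l • y - σ l • y = l • y' - σ l • y' := by
          have h3 : l • y - σ l • y = (x + l • y) - (x + σ l • y) := by abel
          have h4 : l • y' - σ l • y' = (x' + l • y') - (x' + σ l • y') := by abel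
          rw [h3, h4, e, e2]
        rw [sub_smul, smul_sub, smul_sub]
        calc l • y - l • y' - (σ l • y - σ l • y') = (l • y - σ l • y) - (l • y' - σ l • y') := by abel
          _ = 0 := by rw [h1, sub_self]
      have e4 : y = y' := sub_eq_zero.1 ((smul_eq_zero.1 e3).resolve_left (sub_ne_zero.2 hl.symm))
      subst e4
      have e5 : x = x' := add_right_cancel e
      subst e5
      rfl
    have h1 := Nat.card_le_card_of_injective _ hinj
    rw [Nat.card_prod, Module.natCard_eq_pow_finrank (K := F) (V := V), hF, hd, Nat.card_coe_set_eq] at h1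
    have h3 : (2 ^ f) ^ (2 * m) = ((2 ^ b) ^ 2) * ((2 ^ b) ^ 2) := by
      rw [← pow_mul, ← pow_mul, ← pow_add]
      congr 1
      nlinarith
    rw [h3] at h1
    by_contra hcon
    push Not at hcon
    have h4 := Nat.mul_lt_mul_of_lt_of_lt hcon hcon
    omega
  -- some nonzero fixed vector
  obtain ⟨u, hu, hu0⟩ : ∃ u ∈ V0, u ≠ 0 := by
    obtain ⟨x, hx⟩ := hV0
    by_contra hcon
    push Not at hcon
    apply hx
    rw [hdec x, hcon _ (ha x), hcon _ (hb' x), smul_zero, sub_zero, smul_zero]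
  -- `L` is transitive
  have hsub : MulAction.orbit L u ⊆ V0 \ {0} := by
    rintro _ ⟨x, rfl⟩
    refine ⟨?_, ?_⟩
    · rw [hmem]
      change M ((x : V ≃ₗ[F] V) u) = (x : V ≃ₗ[F] V) u
      rw [hc _ x.2, (hmem u).1 hu]
    · intro h
      have h1 : (x : V ≃ₗ[F] V) u = 0 := h
      exact hu0 ((map_eq_zero_iff _ (x : V ≃ₗ[F] V).injective).1 h1)
  have h0mem : (0 : V) ∈ V0 := by
    rw [hmem, hM.map_zero]
  have hge := orbit_ge hb hL hfix hu0
  have hcard' : (V0 \ {0}).ncard = V0.ncard - 1 := Set.ncard_sdiff_singleton_of_mem h0mem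
  have heq : MulAction.orbit L u = V0 \ {0} := by
    refine Set.eq_of_subset_of_ncard_le hsub ?_
    rw [hcard']
    omega
  have hb16 : 16 ≤ (2 ^ b) ^ 2 := by
    have h1 : 2 ≤ b := by nlinarith
    have h3 : 2 ^ 2 ≤ 2 ^ b := Nat.pow_le_pow_right (by norm_num) h1
    nlinarith
  have hQ : ∀ w ∈ V0, w ≠ 0 → Q w = Q u := by
    intro w hw hw0
    have h1 : w ∈ MulAction.orbit L u := by
      rw [heq]
      exact ⟨hw, hw0⟩
    obtain ⟨x, rfl⟩ := h1
    exact mem_O.1 (E_le_O (hLE x.2)) u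
  have hne : ∀ {x y : V}, x ≠ y → x + y ≠ 0 := by
    intro x y hxy h
    apply hxy
    have := hneg y
    exact add_right_cancel (h.trans this.symm)
  have hpol : ∀ x ∈ V0, ∀ y ∈ V0, x ≠ 0 → y ≠ 0 → x ≠ y → polar Q x y = Q u := by
    intro x hx y hy hx0 hy0 hxy
    have h1 := hQ _ (hadd x hx y hy) (hne hxy)
    rw [Q_add, hQ x hx hx0, hQ y hy hy0] at h1
    linear_combination h1 - Q u * h2
  -- three independent vectors
  have hbig : 16 - 1 ≤ (V0 \ {0}).ncard := by rw [← heq]; omega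
  obtain ⟨v, hv, hvn⟩ : ∃ v ∈ V0 \ {0}, v ∉ ({u} : Set V) := by
    by_contra hcon
    push Not at hcon
    have h1 := Set.ncard_le_ncard (show V0 \ {0} ⊆ {u} from hcon)
    rw [Set.ncard_singleton] at h1
    omega
  obtain ⟨w, hw, hwn⟩ : ∃ w ∈ V0 \ {0}, w ∉ ({u, v, u + v} : Set V) := by
    by_contra hcon
    push Not at hcon
    have h1 := Set.ncard_le_ncard (show V0 \ {0} ⊆ {u, v, u + v} from hcon)
    have h3 : ({u, v, u + v} : Set V).ncard ≤ 3 := by
      refine (Set.ncard_insert_le _ _).trans ?_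
      have := Set.ncard_insert_le v ({u + v} : Set V)
      rw [Set.ncard_singleton] at this
      omega
    omega
  have hv0 : v ≠ 0 := hv.2
  have hw0 : w ≠ 0 := hw.2
  have huv : u ≠ v := fun e => hvn e.symm
  have huw : u ≠ w := fun e => hwn (by rw [← e]; exact Or.inl rfl)
  have hvw : v ≠ w := fun e => hwn (by rw [← e]; exact Or.inr (Or.inl rfl))
  have huvw : u ≠ v + w := by
    intro e
    apply hwn
    right
    right
    change w = u + v
    rw [e, add_comm v w, add_assoc, hneg, add_zero]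
  have h0 : Q u = 0 := by
    have h1 := hpol u hu (v + w) (hadd v hv.1 w hw.1) hu0 (hne hvw) huvw
    rw [polar_add_right, hpol u hu v hv.1 hu0 hv0 huv, hpol u hu w hw.1 hu0 hw0 huw] at h1
    linear_combination h1
  have hQ0 : ∀ x ∈ V0, Q x = 0 := by
    intro x hx
    by_cases h : x = 0
    · rw [h, QuadraticMap.map_zero]
    · rw [hQ x hx h, h0]
  have hp0 : ∀ x ∈ V0, ∀ y ∈ V0, polar Q x y = 0 := by
    intro x hx y hy
    have h1 := hQ0 _ (hadd x hx y hy)
    rw [Q_add, hQ0 x hx, hQ0 y hy] at h1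
    linear_combination h1
  apply hu0
  refine hG.nondeg u fun x => ?_
  rw [hdec x, polar_smul_right, polar_sub_right, polar_smul_right, hp0 u hu _ (hb' x), hp0 u hu _ (ha x)]
  simp

theorem inv : Cfsg.Agent.H920.Rg.StmtInv.{u, v} := by
  classical
  intro F V _ _ _ _ _ Q f m b r hG hF hf hm hme hd hbm hr ho L hLE hL hy hfix M hMM hc
  obtain ⟨y, hyL, hyo⟩ := hy
  have h2 := two_zero hF
  obtain ⟨σ, c, hM⟩ := M.2
  have hMM' : ∀ v, M.1 (M.1 v) = v := by
    intro v
    have := congrArg (fun N : Gam Q => N.1 v) hMM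
    exact this
  by_cases hσ : ∀ a, σ a = a
  · -- linear
    have hr2 : r ≠ 2 := by
      rintro rfl
      have h1 : (2 : ZMod 2) = 0 := by decide
      rw [h1] at ho
      have h3 : orderOf (0 : ZMod 2) = 0 := by
        rw [orderOf_eq_zero_iff']
        intro n hn
        rw [zero_pow hn.ne']
        exact zero_ne_one
      rw [h3] at ho
      rcases Nat.mul_eq_zero.1 ho.symm with h4 | h4 <;> omega
    have hc1 : c = 1 := by
      obtain ⟨x, y', hxy⟩ := hG.exists_hyp
      have h1 : Q (x + y') = 1 := by rw [Q_add, hxy.left, hxy.right, hxy.pair]; ring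
      have h3 := hM.form (M.1 (x + y'))
      rw [hMM', hM.form, hσ, hσ, h1, mul_one] at h3
      have h4 : (c - 1) ^ 2 = 0 := by linear_combination (-1 : F) * h3 + (1 - c) * h2
      exact sub_eq_zero.1 (eq_zero_of_pow_eq_zero h4)
    let k : V ≃ₗ[F] V :=
      { toFun := M.1
        invFun := M.1
        map_add' := hM.add
        map_smul' := fun a v => by rw [hM.smul, hσ]; rfl
        left_inv := hMM'
        right_inv := hMM' }
    have hkO : k ∈ O Q := by
      rw [mem_O]
      intro v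
      change Q (M.1 v) = Q v
      rw [hM.form, hσ, hc1, one_mul]
    have hfd : m ∣ finrank F (fix k) := by
      refine dvd_finrank hF hf hr ho hyo (hfix y hyL (by rw [hyo]; exact hr) (by rw [hyo]; exact hr2)) _ fun u hu => ?_
      rw [mem_fix] at hu ⊢
      change M.1 (y u) = y u
      rw [hc y hyL]
      exact congrArg y hu
    have hkE : k ∈ E Q := by
      refine mem_E_of_even hG h2 hkO ?_
      obtain ⟨d, hd'⟩ := hfd
      rw [hd', hd]
      exact (hme.mul_right d).add (even_two_mul m)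
    exact ⟨⟨k, hkE⟩, Subtype.ext (Equiv.ext fun v => rfl)⟩
  · exfalso
    push Not at hσ
    obtain ⟨l, hl⟩ := hσ
    exact false_of_semi hG hF hf hm hd hbm hLE hL hfix hM hMM' hc hl

end Cfsg.Agent.H898.Rg920
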